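import Mathlib
import Cfsg.Agent.H105.Og.Engine
import Cfsg.Agent.H36.Og.LemC
import Cfsg.Agent.H990.TC.CentDec
import Cfsg.Agent.H122.OrthMinus
import Cfsg.Agent.H955.QMinus
import Cfsg.Agent.H749.BlockOrth
import Cfsg.Agent.S0287

/-!
# S2454: the minimal degree of `Ω⁻_8(q)` and the centralizers of elements with one nontrivial constituent
-/

set_option autoImplicit false
set_option linter.unusedVariables false
set_option linter.unusedSectionVars false

namespace Cfsg.Agent.H127.Og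

open QuadraticMap Matrix Module Subgroup Polynomial Cfsg.Agent.LieClassical.OrthCore Cfsg.Agent.H514.DP Cfsg.Agent.H105.Og
open Cfsg.Agent.H122.OrthWt (HQ HQ_apply)
open Cfsg.Agent.H122.OrthIso (IsoQ)

section Iso

variable {F : Type*} [Field F] {U : Type*} [AddCommGroup U] [Module F U]

theorem iso_zero (R : QuadraticForm F U) : IsoQ R (HU (Fin 0) R) := by
  refine ⟨LinearEquiv.ofLinearMap
    { toFun := fun u => ((0, 0), u)
      map_add' := fun x y => by simp
      map_smul' := fun c x => by simp }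
    (LinearMap.snd F _ _) ?_ ?_, fun v => ?_⟩
  · apply LinearMap.ext
    rintro ⟨⟨x, y⟩, u⟩
    exact Prod.ext (Prod.ext (Subsingleton.elim _ _) (Subsingleton.elim _ _)) rfl
  · apply LinearMap.ext
    intro v
    rfl
  · rw [HU_apply]
    show (0 : Fin 0 → F) ⬝ᵥ 0 + R v = R v
    rw [dotProduct_zero, zero_add]

theorem iso_succ (n : ℕ) (R : QuadraticForm F U) : IsoQ (HU (Fin (n + 1)) R) (HQ (HU (Fin n) R)) := by
  refine ⟨LinearEquiv.ofLinearMap
    { toFun := fun v => (((fun i => v.1.1 (Fin.succ i), fun i => v.1.2 (Fin.succ i)), v.2), v.1.1 0, v.1.2 0)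
      map_add' := fun _ _ => rfl
      map_smul' := fun _ _ => rfl }
    { toFun := fun x => ((Fin.cons x.2.1 x.1.1.1, Fin.cons x.2.2 x.1.1.2), x.1.2)
      map_add' := fun x y => by
        refine Prod.ext (Prod.ext ?_ ?_) rfl <;> funext i <;> refine Fin.cases ?_ (fun j => ?_) i <;> simp
      map_smul' := fun c x => by
        refine Prod.ext (Prod.ext ?_ ?_) rfl <;> funext i <;> refine Fin.cases ?_ (fun j => ?_) i <;> simp } ?_ ?_,
    fun v => ?_⟩
  · apply LinearMap.ext
    rintro ⟨⟨⟨x, y⟩, u⟩, a, b⟩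
    rfl
  · apply LinearMap.ext
    rintro ⟨⟨x, y⟩, u⟩
    refine Prod.ext (Prod.ext ?_ ?_) rfl <;> funext i <;> refine Fin.cases rfl (fun j => rfl) i
  · rw [HQ_apply, HU_apply]
    show (fun i => v.1.1 (Fin.succ i)) ⬝ᵥ (fun i => v.1.2 (Fin.succ i)) + R v.2 + v.1.1 0 * v.1.2 0 = HU (Fin (n + 1)) R v
    rw [HU_apply]
    simp only [dotProduct, Fin.sum_univ_succ]
    ring

theorem iso_three (R : QuadraticForm F U) : IsoQ (HQ (HQ (HQ R))) (HU (Fin 3) R) := by
  have h0 := iso_zero R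
  have h1 : IsoQ (HQ R) (HU (Fin 1) R) := h0.hq.trans (iso_succ 0 R).symm
  have h2 : IsoQ (HQ (HQ R)) (HU (Fin 2) R) := h1.hq.trans (iso_succ 1 R).symm
  exact h2.hq.trans (iso_succ 2 R).symm

end Iso

variable {F : Type} [Field F] [Finite F] {U : Type} [AddCommGroup U] [Module F U] [FiniteDimensional F U]

theorem minDeg_eight {R : QuadraticForm F U} (hR : Nondeg R) (hU : finrank F U = 2) (han : ∀ u, R u = 0 → u = 0) :
    MinDeg (E (HU (Fin 3) R)) (Nat.card F ^ 5 + Nat.card F) := by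
  classical
  have : Fintype F := Fintype.ofFinite F
  obtain ⟨a, b, hab⟩ := Cfsg.Agent.H955.exists_aniso_coeff F
  have hm : IsoQ R (Cfsg.Agent.LieClassical.OrthForms.minusForm 0 F a b) := by
    refine Cfsg.Agent.H955.aniso_plane_equiv R _ hR (Cfsg.Agent.LieClassical.OrthForms.nondeg_minusForm 0 F a b hab)
      hU (Cfsg.Agent.H955.finrank_minus 0) han (fun v hv => ?_)
    rw [Cfsg.Agent.LieClassical.OrthForms.coe_minusForm, Cfsg.Agent.LieClassical.OrthForms.quadFormMinus_apply,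
      Finset.univ_eq_empty, Finset.sum_empty, zero_add] at hv
    have h1 := hab _ _ hv
    funext i
    rcases i with (i | i) | i
    · exact Fin.elim0 i
    · exact Fin.elim0 i
    · fin_cases i
      · exact h1.1
      · exact h1.2
  have h1 : IsoQ (Cfsg.Agent.LieClassical.OrthForms.minusForm (0 + 3) F a b)
      (HQ (HQ (HQ (Cfsg.Agent.LieClassical.OrthForms.minusForm 0 F a b)))) :=
    (Cfsg.Agent.H122.OrthIso.isoQ_minus 2 a b).trans ((Cfsg.Agent.H122.OrthIso.isoQ_minus 1 a b).hq.trans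
      (Cfsg.Agent.H122.OrthIso.isoQ_minus 0 a b).hq.hq)
  have h2 : IsoQ (Cfsg.Agent.LieClassical.OrthForms.minusForm (0 + 3) F a b) (HU (Fin 3) R) :=
    (h1.trans hm.symm.hq.hq.hq).trans (iso_three R)
  have h3 := h2.minDeg (Cfsg.Agent.H122.OrthMinus.minDeg_minus a b hab 0)
  have h4 : (Cfsg.Agent.H122.OrthArith.Bm (-1) (Fintype.card F) (0 + 1)).toNat = Nat.card F ^ 5 + Nat.card F := by
    have e : Cfsg.Agent.H122.OrthArith.Bm (-1) (Fintype.card F) (0 + 1) =
        ((Nat.card F ^ 5 + Nat.card F : ℕ) : ℤ) := by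
      rw [Nat.card_eq_fintype_card, Cfsg.Agent.H122.OrthArith.Bm_succ]
      simp only [Cfsg.Agent.H122.OrthArith.Bm]
      push_cast
      ring
    rw [e, Int.toNat_natCast]
  rw [h4] at h3
  exact fun k ρ hρ hk => h3.irr k ρ hρ hk

end Cfsg.Agent.H127.Og
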