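import Mathlib
import Cfsg.Agent.H127.Og.EightA
import Cfsg.Agent.H127.Og.EightB

/-!
# S2454: `Ω⁻_8(q)`, `q ≥ 3`: products of elements of prime order `p` with `ord_p(q) = 4`
-/

set_option autoImplicit false
set_option linter.unusedVariables false
set_option linter.unusedSectionVars false

namespace Cfsg.Agent.H127.Og

open QuadraticMap Matrix Module Subgroup Polynomial Cfsg.Agent.LieClassical.OrthCore Cfsg.Agent.H514.DP Cfsg.Agent.H105.Og

section Num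

theorem num_eight {q : ℕ} (hq : 3 ≤ q) :
    ((q ^ 2 + 1) * ((q ^ 3 + q ^ 2 - q - 1) * q ^ 2 * (4 * q)) - 1) ^ 50 < (q ^ 5 + q) ^ (2 * 50 - 4) := by
  rcases Nat.eq_or_lt_of_le hq with rfl | hq4
  · norm_num
  have h4 : 4 ≤ q := hq4
  have h1 : q ^ 3 + q ^ 2 - q - 1 ≤ q ^ 3 + q ^ 2 := by omega
  have h2 : (q ^ 2 + 1) * ((q ^ 3 + q ^ 2 - q - 1) * q ^ 2 * (4 * q)) - 1 ≤ 6 * q ^ 8 := by
    refine (Nat.sub_le _ _).trans ?_
    have e1 : 4 * (q + 1) ≤ 5 * q := by omega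
    have e2 : 16 * (q ^ 2 + 1) ≤ 17 * q ^ 2 := by nlinarith
    have e3 := Nat.mul_le_mul e1 e2
    have e4 : (q ^ 2 + 1) * ((q ^ 3 + q ^ 2 - q - 1) * q ^ 2 * (4 * q)) ≤
        (q ^ 2 + 1) * ((q ^ 3 + q ^ 2) * q ^ 2 * (4 * q)) := by gcongr
    refine e4.trans ?_
    have e5 := Nat.mul_le_mul_left (q ^ 5) e3
    have e6 : q ^ 5 * (4 * (q + 1) * (16 * (q ^ 2 + 1))) =
      16 * ((q ^ 2 + 1) * ((q ^ 3 + q ^ 2) * q ^ 2 * (4 * q))) := by ring
    have e7 : q ^ 5 * (5 * q * (17 * q ^ 2)) = 85 * q ^ 8 := by ring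
    rw [e6, e7] at e5
    omega
  have h3 : (6 * q ^ 8) ^ 2 < q ^ 19 := by
    have e1 : (6 * q ^ 8) ^ 2 = 36 * q ^ 16 := by ring
    have e2 : q ^ 19 = q ^ 3 * q ^ 16 := by ring
    have e3 : 4 ^ 3 ≤ q ^ 3 := Nat.pow_le_pow_left h4 3
    have e4 : 0 < q ^ 16 := by positivity
    rw [e1, e2]
    exact Nat.mul_lt_mul_of_pos_right (by omega) e4
  calc ((q ^ 2 + 1) * ((q ^ 3 + q ^ 2 - q - 1) * q ^ 2 * (4 * q)) - 1) ^ 50 ≤ (6 * q ^ 8) ^ 50 :=
        Nat.pow_le_pow_left h2 50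
    _ = ((6 * q ^ 8) ^ 2) ^ 25 := by rw [← pow_mul]
    _ < (q ^ 19) ^ 25 := Nat.pow_lt_pow_left h3 (by norm_num)
    _ = q ^ 475 := by rw [← pow_mul]
    _ ≤ q ^ 480 := Nat.pow_le_pow_right (by omega) (by norm_num)
    _ = (q ^ 5) ^ 96 := by rw [← pow_mul]
    _ ≤ (q ^ 5 + q) ^ (2 * 50 - 4) := Nat.pow_le_pow_left (by omega) 96

theorem dvd_sq {p q : ℕ} (hp : p.Prime) (ho : orderOf ((q : ℕ) : ZMod p) = 4) : p ∣ q ^ 2 + 1 := by
  have : Fact p.Prime := ⟨hp⟩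
  have h1 : ((q : ℕ) : ZMod p) ^ 4 = 1 := by rw [← ho]; exact pow_orderOf_eq_one _
  have h2 : ((q : ℕ) : ZMod p) ^ 2 ≠ 1 := pow_ne_one_of_lt_orderOf (by norm_num) (by rw [ho]; norm_num)
  have h3 : (((q : ℕ) : ZMod p) ^ 2 - 1) * (((q : ℕ) : ZMod p) ^ 2 + 1) = 0 := by
    linear_combination h1
  rcases mul_eq_zero.1 h3 with h | h
  · exact absurd (sub_eq_zero.1 h) h2
  · rw [← ZMod.natCast_eq_zero_iff]
    push_cast
    exact h

theorem ne_two {p q : ℕ} (hp : p.Prime) (ho : orderOf ((q : ℕ) : ZMod p) = 4) : p ≠ 2 := by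
  rintro rfl
  have h2 : ((q : ℕ) : ZMod 2) ^ 2 ≠ 1 := pow_ne_one_of_lt_orderOf (by norm_num) (by rw [ho]; norm_num)
  have h1 : ((q : ℕ) : ZMod 2) ^ 4 = 1 := by rw [← ho]; exact pow_orderOf_eq_one _
  generalize ((q : ℕ) : ZMod 2) = x at h1 h2
  revert x
  decide

end Num

variable {F : Type} [Field F] [Finite F] {U : Type} [AddCommGroup U] [Module F U] [FiniteDimensional F U]

/-- the coordinates -/
noncomputable def eq6 (F : Type) [Field F] : ((Fin 3 → F) × (Fin 3 → F)) ≃ₗ[F] (Fin 3 ⊕ Fin 3 → F) :=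
  (LinearEquiv.sumArrowLequivProdArrow (Fin 3) (Fin 3) F F).symm

/-- extension by the identity -/
noncomputable def ext6 (U : Type) [AddCommGroup U] [Module F U] :
    ((Fin 3 ⊕ Fin 3 → F) ≃ₗ[F] (Fin 3 ⊕ Fin 3 → F)) →*
      ((((Fin 3 → F) × (Fin 3 → F)) × U) ≃ₗ[F] (((Fin 3 → F) × (Fin 3 → F)) × U)) where
  toFun f := LinearEquiv.prodCongr ((eq6 F).trans (f.trans (eq6 F).symm)) (LinearEquiv.refl F U)
  map_one' := by
    apply LinearEquiv.ext
    rintro ⟨v, u⟩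
    refine Prod.ext ?_ rfl
    show (eq6 F).symm (eq6 F v) = v
    rw [LinearEquiv.symm_apply_apply]
  map_mul' f g := by
    apply LinearEquiv.ext
    rintro ⟨v, u⟩
    refine Prod.ext ?_ rfl
    show (eq6 F).symm (f (g (eq6 F v))) = (eq6 F).symm (f (eq6 F ((eq6 F).symm (g (eq6 F v)))))
    rw [LinearEquiv.apply_symm_apply]

theorem ext6_apply (f : (Fin 3 ⊕ Fin 3 → F) ≃ₗ[F] (Fin 3 ⊕ Fin 3 → F)) (v : ((Fin 3 → F) × (Fin 3 → F)) × U) :
    ext6 U f v = ((eq6 F).symm (f (eq6 F v.1)), v.2) := rfl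

theorem ext6_injective : Function.Injective (ext6 (F := F) U) := by
  intro f g h
  apply LinearEquiv.ext
  intro v
  have h1 := congrArg (fun t => (eq6 F) (t ((eq6 F).symm v, (0 : U))).1) h
  simpa [ext6_apply] using h1

theorem dotF_eq6 (v : (Fin 3 → F) × (Fin 3 → F)) :
    Cfsg.Agent.LieClassical.OrthForms.plusForm 3 F (eq6 F v) = dotF (Fin 3) F v := by
  rw [Cfsg.Agent.LieClassical.OrthForms.coe_plusForm, Cfsg.Agent.LieClassical.OrthForms.quadFormPlus_apply,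
    dotF_apply]
  rfl

theorem ext6_mem {R : QuadraticForm F U} {f : (Fin 3 ⊕ Fin 3 → F) ≃ₗ[F] (Fin 3 ⊕ Fin 3 → F)}
    (hf : f ∈ O (Cfsg.Agent.LieClassical.OrthForms.plusForm 3 F)) : ext6 U f ∈ O (HU (Fin 3) R) := by
  rw [mem_O]
  intro v
  rw [ext6_apply]
  show QuadraticMap.prod (dotF (Fin 3) F) R _ = QuadraticMap.prod (dotF (Fin 3) F) R _
  rw [QuadraticMap.prod_apply, QuadraticMap.prod_apply, ← dotF_eq6, ← dotF_eq6, LinearEquiv.apply_symm_apply,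
    mem_O.1 hf]

theorem finrank_range_ext6 (f : (Fin 3 ⊕ Fin 3 → F) ≃ₗ[F] (Fin 3 ⊕ Fin 3 → F)) :
    finrank F (LinearMap.range (((ext6 U f : (((Fin 3 → F) × (Fin 3 → F)) × U) ≃ₗ[F] _) :
      (((Fin 3 → F) × (Fin 3 → F)) × U) →ₗ[F] (((Fin 3 → F) × (Fin 3 → F)) × U)) - 1)) < 4 * 2 := by
  have h1 : LinearMap.range (((ext6 U f : (((Fin 3 → F) × (Fin 3 → F)) × U) ≃ₗ[F] _) :
      (((Fin 3 → F) × (Fin 3 → F)) × U) →ₗ[F] (((Fin 3 → F) × (Fin 3 → F)) × U)) - 1) ≤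
      LinearMap.range (LinearMap.inl F ((Fin 3 → F) × (Fin 3 → F)) U) := by
    rintro _ ⟨v, rfl⟩
    refine ⟨(eq6 F).symm (f (eq6 F v.1)) - v.1, ?_⟩
    refine Prod.ext rfl ?_
    show (0 : U) = v.2 - v.2
    rw [sub_self]
  have h2 := Submodule.finrank_mono h1
  have h3 := LinearMap.finrank_range_le (LinearMap.inl F ((Fin 3 → F) × (Fin 3 → F)) U)
  have h4 : finrank F ((Fin 3 → F) × (Fin 3 → F)) = 6 := by
    rw [Module.finrank_prod, Module.finrank_fin_fun]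
  omega

/-- an isometry of order `p` of the hyperbolic space of dimension six -/
theorem exists_six {p : ℕ} (hp : p.Prime) (ho : orderOf ((Nat.card F : ℕ) : ZMod p) = 4) :
    ∃ f ∈ O (Cfsg.Agent.LieClassical.OrthForms.plusForm 3 F), orderOf f = p := by
  classical
  have : Fintype F := Fintype.ofFinite F
  have : Fact p.Prime := ⟨hp⟩
  have h1 := Cfsg.Agent.S0287.result (F := F) (Nat.card_eq_fintype_card (α := F)).symm 3 (by norm_num)
  have h2 : p ∣ Nat.card (Cfsg.isometryGroup F (Cfsg.quadFormPlus 3 F)) := by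
    rw [h1]
    refine Dvd.dvd.mul_left ?_ _
    rw [Finset.prod_range_succ]
    refine Dvd.dvd.mul_left ?_ _
    have h3 : Nat.card F ^ (2 * (1 + 1)) - 1 = (Nat.card F ^ 2 - 1) * (Nat.card F ^ 2 + 1) := by
      have h4 : 1 ≤ Nat.card F ^ 2 := Nat.one_le_pow _ _ Nat.card_pos
      obtain ⟨t, ht⟩ : ∃ t, Nat.card F ^ 2 = t + 1 := ⟨Nat.card F ^ 2 - 1, by omega⟩
      have h5 : Nat.card F ^ (2 * (1 + 1)) = (Nat.card F ^ 2) ^ 2 := by rw [← pow_mul]
      rw [h5, ht]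
      have h6 : (t + 1) ^ 2 = t * (t + 1 + 1) + 1 := by ring
      rw [h6, Nat.add_sub_cancel, Nat.add_sub_cancel]
    rw [h3]
    exact (dvd_sq hp ho).mul_left _
  rw [← Cfsg.Agent.LieClassical.OrthForms.coe_plusForm] at h2
  have hfin : Finite (Cfsg.isometryGroup F ⇑(Cfsg.Agent.LieClassical.OrthForms.plusForm 3 F)) := inferInstance
  obtain ⟨g, hg⟩ := exists_prime_orderOf_dvd_card' (G := Cfsg.isometryGroup F
    ⇑(Cfsg.Agent.LieClassical.OrthForms.plusForm 3 F)) p h2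
  refine ⟨_, (Cfsg.Agent.LieClassical.OrthFinite.isometryEquiv
    (Cfsg.Agent.LieClassical.OrthForms.plusForm 3 F) g).2, ?_⟩
  rw [Subgroup.orderOf_coe, MulEquiv.orderOf_eq]
  exact hg

theorem lemmaX_eight (h3 : 3 ≤ Nat.card F) {p : ℕ} (hp : p.Prime) (ho : orderOf ((Nat.card F : ℕ) : ZMod p) = 4)
    {R : QuadraticForm F U} (hR : Nondeg R) (hU : finrank F U = 2) (han : ∀ u, R u = 0 → u = 0) :
    PW p 70 (E (HU (Fin 3) R)) := by
  classical
  have : Fact p.Prime := ⟨hp⟩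
  have hfin : Finite (E (HU (Fin 3) R)) := finite_E _
  have hG := good_HU hR (n := 3) (by omega)
  have hperf : commutator (E (HU (Fin 3) R)) = ⊤ := perfect_of_good hG
  obtain ⟨f, hf, hfp⟩ := exists_six (F := F) hp ho
  have hxO : ext6 U f ∈ O (HU (Fin 3) R) := ext6_mem hf
  have hxp : orderOf (ext6 U f) = p := by rw [orderOf_injective _ ext6_injective, hfp]
  have hxp1 : ext6 U f ^ p = 1 := by rw [← hxp]; exact pow_orderOf_eq_one _
  have hx1 : ext6 U f ≠ 1 := by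
    intro h
    rw [h, orderOf_one] at hxp
    exact hp.one_lt.ne hxp
  have hxE : ext6 U f ∈ E (HU (Fin 3) R) :=
    Cfsg.Agent.H749.mem_E_of_pEl hG (ne_two hp ho) hxO ⟨1, by rw [pow_one]; exact hxp1⟩
  set x : E (HU (Fin 3) R) := ⟨ext6 U f, hxE⟩ with hx
  have hpF : (p : F) ≠ 0 := by
    intro h0
    obtain ⟨c, hc⟩ := dvd_sq hp ho
    have hq0 : ((Nat.card F : ℕ) : F) = 0 := by
      have : Fintype F := Fintype.ofFinite F
      rw [Nat.card_eq_fintype_card]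
      exact FiniteField.cast_card_eq_zero F
    have h1 : ((Nat.card F ^ 2 + 1 : ℕ) : F) = ((p * c : ℕ) : F) := by rw [hc]
    push_cast at h1
    rw [hq0, h0] at h1
    simp at h1
  have hdim : finrank F (((Fin 3 → F) × (Fin 3 → F)) × U) = 8 := by
    rw [Module.finrank_prod, Module.finrank_prod, Module.finrank_fin_fun, hU]
  have hC : Nat.card (centralizer ({x} : Set (E (HU (Fin 3) R)))) ≤
      (Nat.card F ^ 2 + 1) * ((Nat.card F ^ 3 + Nat.card F ^ 2 - Nat.card F - 1) * Nat.card F ^ 2 *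
        (4 * Nat.card F)) := by
    refine (card_centralizer_le x).trans ?_
    refine dec' (HU (Fin 3) R) (fun u hu => nondeg_HU hR u fun v => by rw [polar_comm]; exact hu v) hp hpF
      ((x : (((Fin 3 → F) × (Fin 3 → F)) × U) ≃ₗ[F] (((Fin 3 → F) × (Fin 3 → F)) × U)) :
        (((Fin 3 → F) × (Fin 3 → F)) × U) →ₗ[F] (((Fin 3 → F) × (Fin 3 → F)) × U))
      ?_ ?_ (fun v => mem_O.1 hxO v) (k := 2) ho (finrank_range_ext6 f) (dvd_sq hp ho) _ ?_
    · intro h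
      apply hx1
      apply LinearEquiv.ext
      intro v
      exact LinearMap.congr_fun h v
    · have h1 : ∀ (n : ℕ), (((ext6 U f ^ n : (((Fin 3 → F) × (Fin 3 → F)) × U) ≃ₗ[F] _) :
        (((Fin 3 → F) × (Fin 3 → F)) × U) →ₗ[F] (((Fin 3 → F) × (Fin 3 → F)) × U))) =
        ((ext6 U f : (((Fin 3 → F) × (Fin 3 → F)) × U) ≃ₗ[F] _) :
          (((Fin 3 → F) × (Fin 3 → F)) × U) →ₗ[F] (((Fin 3 → F) × (Fin 3 → F)) × U)) ^ n := by
        intro n
        induction n with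
        | zero => rfl
        | succ n ih =>
          rw [pow_succ, pow_succ, ← ih]
          rfl
      have h2 := h1 p
      rw [hxp1] at h2
      exact h2.symm
    · intro W hW hnd
      refine Cfsg.Agent.H36.Og.lemmaC4 ((HU (Fin 3) R).comp W.subtype) (fun u hu => hnd u fun v => ?_) ?_
      · rw [polar_comm]; exact hu v
      · rw [hW, hdim]
  have hy : PE p 1 x := by
    refine ⟨x, 1, ⟨1, ?_⟩, rfl, mul_one _⟩
    rw [pow_one]
    exact Subtype.ext hxp1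
  have h50 : PW p (1 * 50) (E (HU (Fin 3) R)) :=
    PW.of_pe (m := 1) (k := 50) hperf hy (minDeg_eight hR hU han) (by norm_num)
      (lt_of_le_of_lt (Nat.pow_le_pow_left (Nat.sub_le_sub_right hC 1) 50) (num_eight h3))
  exact h50.mono (by norm_num)

end Cfsg.Agent.H127.Og
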